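import Cfsg.Agent.H419.EP.Soc
import Cfsg.Agent.H377.Types
import Cfsg.Agent.S0293
import Cfsg.Agent.S0294
import Cfsg.Agent.S0813
import Cfsg.Agent.H775.EP.ModelOmega
import Cfsg.Agent.H852.NCPsl11
import Cfsg.Agent.StandardComponent.AltAut
import Cfsg.Agent.LieClassical.OrthFourCommon
import Cfsg.Agent.ClassicalGeometry.OddInvolutions

/-!
# S3499: orders for the rows `Ω_12^ε(q)` (helper87)

* `model_equiv` : two models of the same matrix group are isomorphic;
* `pomega_equiv` : isometric forms have isomorphic `PΩ`;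
* `card_even_ge` : a lower bound of `|PΩ(Q)|`, `Q` any nondegenerate quadratic form in even dimension;
* `card_aut_…` : orders of automorphism groups.
-/

set_option autoImplicit false

namespace Cfsg.Agent.H87.EPR

open Cfsg Cfsg.Geo Cfsg.Agent.H419.EP Cfsg.Agent.H284
open Cfsg.Agent.LieClassical.OrthCore
open scoped MatrixGroups

section Model

variable {Q Q' : Type*} [Group Q] [Group Q'] {ι : Type} [Fintype ι] [DecidableEq ι] {F : Type*} [Field F]
  {S : Subgroup (GL ι F)}

/-- two models of the same matrix group -/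
theorem model_equiv (m : Model Q S) (m' : Model Q' S) : Nonempty (Q ≃* Q') := by
  have hk : m.π.ker = m'.π.ker := by
    ext s
    rw [MonoidHom.mem_ker, MonoidHom.mem_ker, m.ker, m'.ker]
  exact ⟨(QuotientGroup.quotientKerEquivOfSurjective m.π m.surj).symm.trans
    ((QuotientGroup.quotientMulEquivOfEq hk).trans (QuotientGroup.quotientKerEquivOfSurjective m'.π m'.surj))⟩

end Model

section Card

variable {F : Type} [Field F]

/-- isometric forms -/
theorem pomega_equiv {ι κ : Type} [Fintype ι] [DecidableEq ι] [Fintype κ] [DecidableEq κ]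
    {Q : (ι → F) → F} {Q' : (κ → F) → F} (j : (ι → F) ≃ₗ[F] (κ → F)) (hj : ∀ x, Q' (j x) = Q x) :
    Nonempty (POmega F Q ≃* POmega F Q') := by
  obtain ⟨e0⟩ := LieClassical.OrthFourCommon.exists_isometryGroup_equiv j Q Q' hj
  obtain ⟨e1⟩ := LieClassical.OrthFourCommon.exists_isometryGroup_equiv (LinearEquiv.refl F (κ → F)) Q' Q'
    (fun v => rfl)
  exact ClassicalGeometry.OddInvolutions.commutator_quot_center_congr (e0.trans e1.symm)

variable [Fintype F]

/-- **The order of `PΩ(Q)`, `Q` a nondegenerate quadratic form in dimension `2k ≥ 8`.** -/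
theorem card_even {ι : Type} [Fintype ι] [DecidableEq ι] {Qf : (ι → F) → F} (hQ : IsNondegenerateQuadraticForm Qf)
    {k : ℕ} (hk : 4 ≤ k) (hι : Fintype.card ι = 2 * k) :
    ∃ g e : ℕ, g ≤ 4 ∧ Fintype.card F ^ k - 1 ≤ e ∧ g * Nat.card (POmega F Qf) =
      Fintype.card F ^ (k * (k - 1)) * e * ∏ i ∈ Finset.range (k - 1), (Fintype.card F ^ (2 * (i + 1)) - 1) := by
  obtain ⟨Q, rfl, hQ'⟩ := H883.Bridge.exists_quadraticForm hQ
  have hV : Module.finrank F (ι → F) = 2 * k := by rw [Module.finrank_fintype_fun_eq_card, hι]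
  rcases H377.classify_all (by omega) hV Q hQ' with ⟨e, he⟩ | ⟨ζ, hζ, e, he⟩
  · obtain ⟨E⟩ := pomega_equiv e he
    refine ⟨Nat.gcd 4 (Fintype.card F ^ k - 1), Fintype.card F ^ k - 1, Nat.gcd_le_left _ (by norm_num), le_rfl, ?_⟩
    rw [← Nat.card_congr E.toEquiv]
    exact Cfsg.Agent.S0293.result rfl k hk
  · obtain ⟨E⟩ := pomega_equiv e he
    refine ⟨Nat.gcd 4 (Fintype.card F ^ k + 1), Fintype.card F ^ k + 1, Nat.gcd_le_left _ (by norm_num), by omega, ?_⟩
    rw [← Nat.card_congr E.toEquiv]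
    exact Cfsg.Agent.S0294.result rfl k hk 1 ζ hζ

/-- a lower bound -/
theorem card_even_ge {ι : Type} [Fintype ι] [DecidableEq ι] {Qf : (ι → F) → F} (hQ : IsNondegenerateQuadraticForm Qf)
    {k : ℕ} (hk : 4 ≤ k) (hι : Fintype.card ι = 2 * k) {q : ℕ} (hq : q ≤ Fintype.card F) :
    q ^ (k * (k - 1)) * (q ^ k - 1) * ∏ i ∈ Finset.range (k - 1), (q ^ (2 * (i + 1)) - 1) ≤
      4 * Nat.card (POmega F Qf) := by
  obtain ⟨g, e, hg, he, h⟩ := card_even hQ hk hι
  refine le_trans ?_ (Nat.mul_le_mul_right _ hg)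
  rw [h]
  refine Nat.mul_le_mul (Nat.mul_le_mul (Nat.pow_le_pow_left hq _) (le_trans ?_ he)) ?_
  · exact Nat.sub_le_sub_right (Nat.pow_le_pow_left hq _) 1
  · exact Finset.prod_le_prod' fun i _ => Nat.sub_le_sub_right (Nat.pow_le_pow_left hq _) 1

/-- the same for a model -/
theorem card_model_ge {Q : Type} [Group Q] {ι : Type} [Fintype ι] [DecidableEq ι] {Qf : (ι → F) → F}
    (m : Model Q (omegaGL Qf)) (hQ : IsNondegenerateQuadraticForm Qf)
    {k : ℕ} (hk : 4 ≤ k) (hι : Fintype.card ι = 2 * k) {q : ℕ} (hq : q ≤ Fintype.card F) :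
    q ^ (k * (k - 1)) * (q ^ k - 1) * ∏ i ∈ Finset.range (k - 1), (q ^ (2 * (i + 1)) - 1) ≤ 4 * Nat.card Q := by
  obtain ⟨m'⟩ := H775.EP.model_omega hQ (show 5 ≤ Fintype.card ι by omega)
  obtain ⟨e⟩ := model_equiv m m'
  rw [Nat.card_congr e.toEquiv]
  exact card_even_ge hQ hk hι hq

end Card

section Aut

theorem card_aut_l13 : Nat.card (MulAut (Matrix.ProjectiveSpecialLinearGroup (Fin 2) (ZMod 13))) = 2184 := by
  have : Fact (Nat.Prime 13) := ⟨by norm_num⟩
  rw [Cfsg.Agent.S0813.result 13 1 le_rfl (by rw [ZMod.card, pow_one]) 2 le_rfl (fun _ => by norm_num),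
    Cfsg.Agent.S0265.result, Cfsg.Agent.ClassicalGeometry.PSL2Basic.card_SL2, ZMod.card]
  norm_num

theorem card_aut_l33 : Nat.card (MulAut (Matrix.ProjectiveSpecialLinearGroup (Fin 3) (ZMod 3))) ∣ 22464 := by
  have : Fact (Nat.Prime 3) := ⟨Nat.prime_three⟩
  rw [Cfsg.Agent.S0813.result 3 1 le_rfl (by rw [ZMod.card, pow_one]) 3 (by norm_num) (fun h => absurd h (by norm_num)),
    if_neg (by norm_num), mul_one]
  have h1 : Nat.card (Matrix.ProjGenLinGroup (Fin 3) (ZMod 3)) ∣ 11232 := by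
    have h2 : Nat.card (GL (Fin 3) (ZMod 3)) = 11232 := by
      rw [Matrix.card_GL_field]
      simp [Fin.prod_univ_three, ZMod.card]
    rw [← h2]
    exact Subgroup.card_quotient_dvd_card _
  exact mul_dvd_mul_left 2 h1

theorem card_aut_alt {n : ℕ} (hn : 7 ≤ n) : Nat.card (MulAut (alternatingGroup (Fin n))) ∣ n.factorial := by
  obtain ⟨ψ, hψ⟩ := StandardComponent.AltAut.exists_autHom n hn
  have hinj : Function.Injective ψ := by
    intro a b hab
    ext x : 1
    apply Subtype.ext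
    rw [hψ, hψ, hab]
  have h1 := Subgroup.card_dvd_of_injective ψ hinj
  have h2 : Nat.card (Equiv.Perm (Fin n)) = n.factorial := by
    rw [Nat.card_perm, Nat.card_eq_fintype_card, Fintype.card_fin]
  rwa [h2] at h1

/-- `|A|` divides `|Aut L|` -/
theorem card_dvd_aut {Q : Type*} [Group Q] {A : Subgroup Q} {L : Type*} [Group L] (h : HasSoc A L) :
    Nat.card A ∣ Nat.card (MulAut L) := by
  obtain ⟨f, hf⟩ := h.exists_hom
  exact Subgroup.card_dvd_of_injective f hf

end Aut

end Cfsg.Agent.H87.EPR
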